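import Mathlib
import Cfsg.Agent.Proj.Plane

/-! Fixed subplanes, involutions of finite projective planes (Baer). -/

set_option autoImplicit false
set_option linter.unusedSectionVars false

namespace Cfsg.Agent.Proj
open Configuration ProjectivePlane

variable {G : Type*} [Group G]

/-- The elements fixed by a set of group elements. -/
def FP (S : Set G) (X : Type*) [MulAction G X] : Type _ := {x : X // ∀ g ∈ S, g • x = x}

instance finiteFP (S : Set G) (X : Type*) [MulAction G X] [Finite X] : Finite (FP S X) :=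
  inferInstanceAs (Finite {x : X // ∀ g ∈ S, g • x = x})

variable {P L : Type*} [Membership P L] [MulAction G P] [MulAction G L]

instance memFP (S : Set G) : Membership (FP S P) (FP S L) := ⟨fun l p => p.1 ∈ l.1⟩

theorem memFP_iff {S : Set G} {p : FP S P} {l : FP S L} : p ∈ l ↔ p.1 ∈ l.1 := Iff.rfl

variable (P L) in
/-- The fixed structure of `S` is a subplane. -/
def Planar (S : Set G) : Prop :=
  ∃ (p₁ p₂ p₃ : FP S P) (l₁ l₂ l₃ : FP S L),
    p₁ ∉ l₂ ∧ p₁ ∉ l₃ ∧ p₂ ∉ l₁ ∧ p₂ ∈ l₂ ∧ p₂ ∈ l₃ ∧ p₃ ∉ l₁ ∧ p₃ ∈ l₂ ∧ p₃ ∉ l₃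

theorem Planar.mono {S T : Set G} (h : Planar P L T)
    (hP : ∀ p : P, (∀ g ∈ T, g • p = p) → ∀ g ∈ S, g • p = p)
    (hL : ∀ p : L, (∀ g ∈ T, g • p = p) → ∀ g ∈ S, g • p = p) : Planar P L S := by
  obtain ⟨p₁, p₂, p₃, l₁, l₂, l₃, h⟩ := h
  exact ⟨⟨p₁.1, hP _ p₁.2⟩, ⟨p₂.1, hP _ p₂.2⟩, ⟨p₃.1, hP _ p₃.2⟩, ⟨l₁.1, hL _ l₁.2⟩,
    ⟨l₂.1, hL _ l₂.2⟩, ⟨l₃.1, hL _ l₃.2⟩, h⟩

/-- The permutation of the fixed set of `U` induced by an element of the normalizer. -/
def resPerm (U : Subgroup G) (X : Type*) [MulAction G X] (t : G)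
    (ht : t ∈ Subgroup.normalizer (U : Set G)) : Equiv.Perm (FP (U : Set G) X) where
  toFun x := ⟨t • x.1, fun g hg => by
    have := x.2 _ ((Subgroup.mem_normalizer_iff''.1 ht g).1 hg)
    rw [mul_smul, mul_smul, inv_smul_eq_iff] at this
    exact this⟩
  invFun x := ⟨t⁻¹ • x.1, fun g hg => by
    have := x.2 _ ((Subgroup.mem_normalizer_iff.1 ht g).1 hg)
    rw [mul_smul, mul_smul, smul_eq_iff_eq_inv_smul] at this
    exact this⟩
  left_inv x := Subtype.ext (inv_smul_smul t x.1)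
  right_inv x := Subtype.ext (smul_inv_smul t x.1)

variable [Coll G P L]

variable (P L) in
/-- The collineation of the fixed structure of `U` induced by an element of the normalizer. -/
def res (U : Subgroup G) (t : G) (ht : t ∈ Subgroup.normalizer (U : Set G)) :
    Col (FP (U : Set G) P) (FP (U : Set G) L) :=
  ⟨(resPerm U P t ht, resPerm U L t ht), fun p l => Coll.mem_iff t p.1 l.1⟩

theorem res_smulP (U : Subgroup G) (t : G) (ht : t ∈ Subgroup.normalizer (U : Set G))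
    (p : FP (U : Set G) P) : (res P L U t ht • p).1 = t • p.1 := rfl

theorem res_smulL (U : Subgroup G) (t : G) (ht : t ∈ Subgroup.normalizer (U : Set G))
    (p : FP (U : Set G) L) : (res P L U t ht • p).1 = t • p.1 := rfl

theorem res_mul_self (U : Subgroup G) (t : G) (ht : t ∈ Subgroup.normalizer (U : Set G))
    (h2 : t * t ∈ U) : res P L U t ht * res P L U t ht = 1 :=
  Subtype.ext (Prod.ext
    (Equiv.ext fun p => Subtype.ext (by
      change t • t • p.1 = p.1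
      rw [← mul_smul]; exact p.2 _ h2))
    (Equiv.ext fun p => Subtype.ext (by
      change t • t • p.1 = p.1
      rw [← mul_smul]; exact p.2 _ h2)))

theorem planar_res_iff (U : Subgroup G) (t : G) (ht : t ∈ Subgroup.normalizer (U : Set G)) :
    Planar (FP (U : Set G) P) (FP (U : Set G) L) {res P L U t ht} ↔
      Planar P L (insert t (U : Set G)) := by
  constructor
  · rintro ⟨p₁, p₂, p₃, l₁, l₂, l₃, h⟩
    have hP : ∀ p : FP {res P L U t ht} (FP (U : Set G) P), ∀ g ∈ insert t (U : Set G),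
        g • p.1.1 = p.1.1 := by
      rintro p g (rfl | hg)
      · exact congrArg Subtype.val (p.2 _ rfl)
      · exact p.1.2 g hg
    have hL : ∀ p : FP {res P L U t ht} (FP (U : Set G) L), ∀ g ∈ insert t (U : Set G),
        g • p.1.1 = p.1.1 := by
      rintro p g (rfl | hg)
      · exact congrArg Subtype.val (p.2 _ rfl)
      · exact p.1.2 g hg
    exact ⟨⟨_, hP p₁⟩, ⟨_, hP p₂⟩, ⟨_, hP p₃⟩, ⟨_, hL l₁⟩, ⟨_, hL l₂⟩, ⟨_, hL l₃⟩, h⟩
  · rintro ⟨p₁, p₂, p₃, l₁, l₂, l₃, h⟩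
    let fP : FP (insert t (U : Set G)) P → FP {res P L U t ht} (FP (U : Set G) P) := fun p =>
      ⟨⟨p.1, fun g hg => p.2 g (Or.inr hg)⟩, by
        rintro g rfl; exact Subtype.ext (p.2 t (Or.inl rfl))⟩
    let fL : FP (insert t (U : Set G)) L → FP {res P L U t ht} (FP (U : Set G) L) := fun p =>
      ⟨⟨p.1, fun g hg => p.2 g (Or.inr hg)⟩, by
        rintro g rfl; exact Subtype.ext (p.2 t (Or.inl rfl))⟩
    exact ⟨fP p₁, fP p₂, fP p₃, fL l₁, fL l₂, fL l₃, h⟩

theorem card_FP_res (U : Subgroup G) (t : G) (ht : t ∈ Subgroup.normalizer (U : Set G)) :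
    Nat.card (FP {res P L U t ht} (FP (U : Set G) P)) = Nat.card (FP (insert t (U : Set G)) P) :=
  Nat.card_congr
    { toFun := fun p => ⟨p.1.1, by
        rintro g (rfl | hg)
        · exact congrArg Subtype.val (p.2 _ rfl)
        · exact p.1.2 g hg⟩
      invFun := fun p => ⟨⟨p.1, fun g hg => p.2 g (Or.inr hg)⟩, by
        rintro g rfl; exact Subtype.ext (p.2 t (Or.inl rfl))⟩
      left_inv := fun _ => rfl
      right_inv := fun _ => rfl }

variable [ProjectivePlane P L]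

/-- The fixed subplane. -/
@[reducible] noncomputable def fixPlane {S : Set G} (h : Planar P L S) :
    ProjectivePlane (FP S P) (FP S L) where
  exists_point l := by
    obtain ⟨p₁, p₂, p₃, l₁, l₂, l₃, h₁₂, h₁₃, h₂₁, h₂₂, h₂₃, h₃₁, h₃₂, h₃₃⟩ := h
    by_contra hc
    push Not at hc
    have : l.1 = l₂.1 := line_eq (p := p₂.1) (q := p₃.1)
      (fun e => h₃₃ (memFP_iff.2 (e ▸ h₂₃))) (hc p₂) (hc p₃) h₂₂ h₃₂
    exact h₁₂ (memFP_iff.2 (this ▸ hc p₁))
  exists_line p := by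
    obtain ⟨p₁, p₂, p₃, l₁, l₂, l₃, h₁₂, h₁₃, h₂₁, h₂₂, h₂₃, h₃₁, h₃₂, h₃₃⟩ := h
    by_contra hc
    push Not at hc
    have : p.1 = p₂.1 := point_eq (l := l₂.1) (m := l₃.1)
      (fun e => h₃₃ (memFP_iff.2 (e ▸ h₃₂))) (hc l₂) (hc l₃) h₂₂ h₂₃
    exact h₂₁ (memFP_iff.2 (this ▸ hc l₁))
  eq_or_eq h1 h2 h3 h4 := (Nondegenerate.eq_or_eq (P := P) (L := L) h1 h2 h3 h4).imp
    Subtype.ext Subtype.ext
  mkPoint {l m} h :=
    have h' : l.1 ≠ m.1 := fun e => h (Subtype.ext e)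
    ⟨HasPoints.mkPoint h', fun g hg => fix_point h' (HasPoints.mkPoint_ax h').1
      (HasPoints.mkPoint_ax h').2 (l.2 g hg) (m.2 g hg)⟩
  mkPoint_ax h := HasPoints.mkPoint_ax (P := P) (L := L) fun e => h (Subtype.ext e)
  mkLine {p q} h :=
    have h' : p.1 ≠ q.1 := fun e => h (Subtype.ext e)
    ⟨HasLines.mkLine h', fun g hg => fix_line h' (HasLines.mkLine_ax h').1
      (HasLines.mkLine_ax h').2 (p.2 g hg) (q.2 g hg)⟩
  mkLine_ax h := HasLines.mkLine_ax (P := P) (L := L) fun e => h (Subtype.ext e)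
  exists_config := h

variable [Finite P] [Finite L]

theorem inv_struct {g : G} (hg : g * g = 1) {x : P} (hx : g • x ≠ x) :
    ∃ k : L, x ∈ k ∧ g • k = k ∧ ∀ m : L, x ∈ m → m ≠ k →
      g • m ≠ m ∧ ∃ y : P, y ∈ m ∧ y ∉ k ∧ g • y = y := by
  obtain ⟨k, hk1, hk2⟩ := exists_join L x (g • x)
  have hgg : ∀ p : P, g • g • p = p := fun p => by rw [← mul_smul, hg, one_smul]
  refine ⟨k, hk1, line_eq hx (smul_mem hk1) (by simpa [hgg] using smul_mem (g := g) hk2) hk2 hk1,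
    fun m hm hmk => ?_⟩
  have h1 : g • m ≠ m := fun e => hmk (line_eq hx (smul_mem_of_fix e hm) hm hk2 hk1)
  obtain ⟨y, hy1, hy2⟩ := exists_meet' (P := P) h1
  have hy : g • y = y := point_eq h1 (smul_mem hy2)
    (by simpa [← mul_smul, hg] using smul_mem (g := g) hy1) hy1 hy2
  refine ⟨h1, y, hy2, fun h => hmk (line_eq (p := x) (q := y) ?_ hm hy2 hk1 h), hy⟩
  rintro rfl; exact hx hy

include L in
theorem exists_moved {g : G} (hg : g ≠ 1) : ∃ x : P, g • x ≠ x := by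
  by_contra hc
  push Not at hc
  exact hg (Coll.faithP (L := L) g hc)

variable (L) in
include L in
theorem exists_two_fixed {g : G} (hg : g * g = 1) :
    ∃ u v : P, u ≠ v ∧ g • u = u ∧ g • v = v := by
  by_cases h1 : g = 1
  · obtain ⟨p₁, p₂, p₃, l₁, l₂, l₃, -, -, -, -, h₂₃, -, -, h₃₃⟩ :=
      ProjectivePlane.exists_config (P := P) (L := L)
    exact ⟨p₂, p₃, fun e => h₃₃ (e ▸ h₂₃), by simp [h1], by simp [h1]⟩
  obtain ⟨x, hx⟩ := exists_moved (P := P) (L := L) h1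
  obtain ⟨k, hk, -, h⟩ := inv_struct (L := L) hg hx
  obtain ⟨m, hm, hmk, -⟩ := exists_thru_ne x k k
  obtain ⟨m', hm', hmk', hmm⟩ := exists_thru_ne x k m
  obtain ⟨-, y, hy1, hy2, hy3⟩ := h m hm hmk
  obtain ⟨-, y', hy1', hy2', hy3'⟩ := h m' hm' hmk'
  refine ⟨y, y', ?_, hy3, hy3'⟩
  rintro rfl
  exact hy2 (point_eq hmm hy1' hy1 hm' hm ▸ hk)

variable (P L) in
/-- An involution is planar or has an axis. -/
theorem planar_or_axis {g : G} (hg : g * g = 1) (h1 : g ≠ 1) :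
    Planar P L {g} ∨ ∃ a : L, Axis P g a := by
  obtain ⟨x, hx⟩ := exists_moved (P := P) (L := L) h1
  obtain ⟨k, hk, hgk, h⟩ := inv_struct (L := L) hg hx
  obtain ⟨m, hm, hmk, -⟩ := exists_thru_ne x k k
  obtain ⟨m', hm', hmk', hmm⟩ := exists_thru_ne x k m
  obtain ⟨-, y, hy1, hy2, hy3⟩ := h m hm hmk
  obtain ⟨-, y', hy1', hy2', hy3'⟩ := h m' hm' hmk'
  have hyy : y ≠ y' := by
    rintro rfl
    exact hy2 (point_eq hmm hy1' hy1 hm' hm ▸ hk)
  obtain ⟨a, ha1, ha2⟩ := exists_join L y y'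
  have hga : g • a = a := fix_line hyy ha1 ha2 hy3 hy3'
  by_cases hax : Axis P g a
  · exact Or.inr ⟨a, hax⟩
  left
  obtain ⟨p, hpa, hp⟩ : ∃ p : P, p ∈ a ∧ g • p ≠ p := by
    by_contra hc; push Not at hc; exact hax hc
  have hak : a ≠ k := fun e => hy2 (e ▸ ha1)
  obtain ⟨n, hn1, hn2⟩ := exists_join L x p
  have hnk : n ≠ k := fun e => hp (fix_point hak hpa (e ▸ hn2) hga hgk)
  obtain ⟨hn, z, hz1, hz2, hz3⟩ := h n hn1 hnk
  have hza : z ∉ a := fun h' => hp (by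
    rw [point_eq (l := n) (m := a) (fun e => hn (e ▸ hga)) hn2 hpa hz1 h']; exact hz3)
  obtain ⟨b, hb1, hb2⟩ := exists_join L y z
  obtain ⟨c, hc1, hc2⟩ := exists_join L y' z
  have hyz : y ≠ z := fun e => hza (e ▸ ha1)
  have hyz' : y' ≠ z := fun e => hza (e ▸ ha2)
  have hgb : g • b = b := fix_line hyz hb1 hb2 hy3 hz3
  have hgc : g • c = c := fix_line hyz' hc1 hc2 hy3' hz3
  have hck : c ≠ k := fun e => hz2 (e ▸ hc2)
  obtain ⟨w, hw1, hw2⟩ := exists_meet' (P := P) hck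
  have hgw : g • w = w := fix_point hck hw1 hw2 hgc hgk
  have hy'b : y' ∉ b := fun h' => hza (line_eq hyy hb1 h' ha1 ha2 ▸ hb2)
  refine ⟨⟨w, by rintro _ rfl; exact hgw⟩, ⟨y, by rintro _ rfl; exact hy3⟩,
    ⟨y', by rintro _ rfl; exact hy3'⟩, ⟨k, by rintro _ rfl; exact hgk⟩,
    ⟨a, by rintro _ rfl; exact hga⟩, ⟨b, by rintro _ rfl; exact hgb⟩, fun h' => ?_, fun h' => ?_,
    hy2, ha1, hb1, hy2', ha2, hy'b⟩
  · exact hy2' (point_eq (l := c) (m := a) (fun e => hza (e ▸ hc2)) hw1 h' hc1 ha2 ▸ hw2)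
  · exact hz2 (point_eq (l := c) (m := b) (fun e => hy'b (e ▸ hc1)) hw1 h' hc2 hb2 ▸ hw2)

/-- Baer's theorem on planar involutions. -/
theorem baer {g : G} (hg : g * g = 1) (h1 : g ≠ 1) (h : Planar P L {g}) :
    ∃ s : ℕ, order P L = s ^ 2 ∧ Nat.card (FP {g} P) = s ^ 2 + s + 1 := by
  let _ := fixPlane h
  refine ⟨order (FP {g} P) (FP {g} L), ?_, card_P _ _⟩
  obtain ⟨x, hx⟩ := exists_moved (P := P) (L := L) h1
  obtain ⟨k, hk, hgk, h⟩ := inv_struct (L := L) hg hx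
  let k' : FP {g} L := ⟨k, by rintro _ rfl; exact hgk⟩
  rw [← ncard_off (FP {g} P) k', ← ncard_lns_ne hk]
  choose f hf1 hf2 using fun y : FP {g} P => exists_join L x y.1
  have hxy : ∀ y : FP {g} P, x ≠ y.1 := fun y e => hx (by rw [e]; exact y.2 g rfl)
  symm
  refine Set.ncard_congr (fun y _ => f y) (fun y hy => ⟨hf1 y, fun e => hy ?_⟩) (fun y y' hy hy' e => ?_)
    (fun m hm => ?_)
  · exact (e ▸ hf2 y : y.1 ∈ k)
  · by_contra hne
    have hfk : f y ≠ k := fun e => hy (e ▸ hf2 y : y.1 ∈ k)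
    exact (h _ (hf1 y) hfk).1 (fix_line (p := y.1) (q := y'.1) (fun e => hne (Subtype.ext e))
      (hf2 y) (e ▸ hf2 y') (y.2 g rfl) (y'.2 g rfl))
  · obtain ⟨-, y, hy1, hy2, hy3⟩ := h m hm.1 hm.2
    let y' : FP {g} P := ⟨y, by rintro _ rfl; exact hy3⟩
    exact ⟨y', hy2, line_eq (hxy y') (hf1 y') (hf2 y') hm.1 hy1⟩

theorem sq_add_inj {s t : ℕ} (h : s ^ 2 + s + 1 = t ^ 2 + t + 1) : s = t := by
  rcases lt_trichotomy s t with h1 | h1 | h1
  · nlinarith
  · exact h1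
  · nlinarith

theorem exists_index_two [Finite G] {U : Subgroup G} (hU : IsPGroup 2 U) (h1 : U ≠ ⊥) :
    ∃ (V : Subgroup G) (t : G), V < U ∧ t ∈ U ∧ t ∈ Subgroup.normalizer (V : Set G) ∧ t * t ∈ V ∧
      ∀ u ∈ U, u ∈ V ∨ u * t ∈ V := by
  obtain ⟨k, hk⟩ := hU.exists_card_eq
  obtain _ | k := k
  · exact absurd (Subgroup.card_eq_one.1 hk) h1
  obtain ⟨K, hK⟩ := Sylow.exists_subgroup_card_pow_prime (G := U) 2 (n := k)
    (by rw [hk]; exact pow_dvd_pow 2 k.le_succ)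
  have hi : K.index = 2 := by
    have := K.card_mul_index
    rw [hK, hk, pow_succ] at this
    exact Nat.eq_of_mul_eq_mul_left (by positivity) this
  obtain ⟨t, ht⟩ : ∃ t : U, t ∉ K := by
    by_contra hc; push Not at hc
    rw [(Subgroup.eq_top_iff' K).2 hc, Subgroup.index_top] at hi; omega
  have hN := Subgroup.normal_of_index_eq_two hi
  have hm : ∀ u : U, (u : G) ∈ K.map U.subtype ↔ u ∈ K := fun u =>
    Subgroup.mem_map_iff_mem Subtype.val_injective
  refine ⟨K.map U.subtype, t, lt_of_le_of_ne (Subgroup.map_subtype_le K) fun e => ht ?_, t.2,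
    ?_, (hm (t * t)).2 (Subgroup.mul_self_mem_of_index_two hi t), fun u hu => ?_⟩
  · exact (hm t).1 (by rw [e]; exact t.2)
  · refine Subgroup.mem_normalizer_fintype fun n hn => ?_
    obtain ⟨n, hn, rfl⟩ := hn
    exact (hm (t * n * t⁻¹)).2 (hN.conj_mem n hn t)
  · by_cases h : (⟨u, hu⟩ : U) ∈ K
    · exact Or.inl ((hm _).2 h)
    · exact Or.inr ((hm (⟨u, hu⟩ * t)).2 ((Subgroup.mul_mem_iff_of_index_two hi).2 (by simp [h, ht])))

/-- The order of the plane is a power of the order of the subplane fixed by a `2`-group. -/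
theorem exists_order_eq_pow [Finite G] (U : Subgroup G) (hU : IsPGroup 2 U)
    (h : Planar P L (U : Set G)) {s : ℕ} (hs : Nat.card (FP (U : Set G) P) = s ^ 2 + s + 1) :
    ∃ t, 0 < t ∧ order P L = s ^ t := by
  induction U using WellFoundedLT.induction generalizing s with
  | ind U ih =>
  by_cases h1 : U = ⊥
  · subst h1
    refine ⟨1, one_pos, ?_⟩
    rw [pow_one]
    refine sq_add_inj ?_
    rw [← hs, ← card_P P L]
    exact (Nat.card_congr (Equiv.subtypeUnivEquiv fun p g hg => by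
      rw [Subgroup.mem_bot.1 hg, one_smul])).symm
  obtain ⟨V, t, hVU, htU, htN, ht2, hcos⟩ := exists_index_two hU h1
  have hV : Planar P L (V : Set G) :=
    h.mono (fun p hp g hg => hp g (hVU.le hg)) (fun p hp g hg => hp g (hVU.le hg))
  let _ := fixPlane hV
  obtain ⟨r, hr0, hr⟩ := ih V hVU (hU.to_le hVU.le) hV (card_P (FP (V : Set G) P) (FP (V : Set G) L))
  have hsub : ∀ g ∈ insert t (V : Set G), g ∈ U := by
    rintro g (rfl | hg)
    · exact htU
    · exact hVU.le hg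
  have hc : Nat.card (FP (insert t (V : Set G)) P) = s ^ 2 + s + 1 := by
    rw [← hs]
    refine Nat.card_congr (Equiv.subtypeEquivRight fun p => ⟨fun hp g hg => ?_,
      fun hp g hg => hp g (hsub g hg)⟩)
    rcases hcos g hg with h2 | h2
    · exact hp g (Or.inr h2)
    · have := hp _ (Or.inr h2)
      rwa [mul_smul, hp t (Or.inl rfl)] at this
  rw [← card_FP_res (L := L) V t htN] at hc
  by_cases h2 : res P L V t htN = 1
  · refine ⟨r, hr0, ?_⟩
    rw [hr]; congr 1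
    refine sq_add_inj ?_
    rw [← hc, ← card_P]
    exact (Nat.card_congr (Equiv.subtypeUnivEquiv fun p g hg => by
      rw [Set.mem_singleton_iff.1 hg, h2, one_smul])).symm
  · obtain ⟨s', h3, h4⟩ := baer (res_mul_self V t htN ht2) h2 ((planar_res_iff V t htN).2
      (h.mono (fun p hp g hg => hp g (hsub g hg)) (fun p hp g hg => hp g (hsub g hg))))
    rw [h4] at hc
    exact ⟨2 * r, by omega, by rw [hr, h3, sq_add_inj hc, pow_mul]⟩

end Cfsg.Agent.Proj
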